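import Cfsg.Agent.H75.TwistGen.Comm

/-!
# Twisted groups with one root length: the pair of generators
-/

set_option autoImplicit false

namespace Cfsg.Agent.H75.TwistGen

open Cfsg.Lie Cfsg.Agent.H46
open scoped Matrix MatrixGroups

variable {D : ChevalleyDatum} {T : GraphData D} {G : Good D} {F : Type*} [Field F] [Fintype F]
  (h : T.Ok G) (C : CoxData G) (f : F →+* F)

include h C

/-- Two elements generating the twisted group, given that every root group comes from the seed. -/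
theorem exists_pair {j : Fin T.m} {L : List (Fin T.m)} (r' : Fin D.nroots)
    (hr' : twAct T G L r' = G.simpleF (T.rep j)) (hpre : ∀ k ∈ T.orb j, ∃ r : Fin D.nroots, twAct T G L r = G.simpleF k)
    (hper : ∀ t : F, f^[T.len j] t = t) (ζ : Fˣ) (hgen : ∀ x : Fˣ, x ∈ Subgroup.zpowers ζ)
    (hsq : (ζ : F) ^ 2 ≠ 1) (hβ : chi T f j (ζ : F) r' ≠ 1)
    (hfin : ∀ M : Subgroup (GL D.Idx F), M ≤ (T.tdata h C f).G1 → Cov (G := G) f M j → nWord T G L ∈ M →
      ∀ i : Fin T.m, Cov (G := G) f M i ∧ ∀ c, T.Sat f i c → T.nX G i c ∈ M) :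
    ∃ a ∈ (T.tdata h C f).G1, ∃ b ∈ (T.tdata h C f).G1, (T.tdata h C f).G1 ≤ Subgroup.closure {a, b} := by
  set p := T.orbParam f j (ζ : F)
  set A := T.orbProd j fun k : Fin D.rank => G.hg (D.simple k) (p k)
  set B := T.pX G j (fun _ => (1 : F)) * nWord T G L
  have hp0 : ∀ k ∈ T.orb j, p k ≠ 0 := by
    intro k hk e0
    obtain ⟨s, hs, rfl⟩ := List.mem_map.1 hk
    rw [show p = T.orbParam f j (ζ : F) from rfl, T.orbParam_apply h f (hper _) (List.mem_range.1 hs).le] at e0
    exact ζ.ne_zero (Function.Injective.iterate f.injective s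
      (e0.trans (Function.iterate_fixed (map_zero f) s).symm))
  have hAG : A ∈ (T.tdata h C f).G1 := (T.tdata h C f).N0_le_G1 ((T.tdata h C f).H0_le_N0
    (T.orb_hg_mem_fixTorus h f j (T.sat_orbParam h f (hper _)) hp0))
  have hBG : B ∈ (T.tdata h C f).G1 :=
    mul_mem (mem_G1_of_gen h C f ⟨j, fun _ => (1 : F), fun _ _ => (map_one f).symm, Or.inl rfl⟩)
      (nWord_mem_G1 h C f L)
  refine ⟨A, hAG, B, hBG, ?_⟩
  obtain ⟨hc, hn⟩ := seed (M := Subgroup.closure {A, B}) h C f r' hr' hper hpre ζ hgen hsq hβ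
    (Subgroup.subset_closure (Set.mem_insert _ _)) (Subgroup.subset_closure (Set.mem_insert_of_mem _ rfl))
  have hle : Subgroup.closure {A, B} ≤ (T.tdata h C f).G1 := by
    rw [Subgroup.closure_le]
    rintro x (rfl | rfl)
    exacts [hAG, hBG]
  have hall := hfin _ hle hc hn
  conv_lhs => rw [T.G1_eq_closure h C f]
  rw [Subgroup.closure_le]
  rintro g ⟨i, c, hci, rfl | rfl⟩
  exacts [(hall i).1 c hci, (hall i).2 c hci]

omit h C in
/-- Distinct powers below the order of a generator are distinct. -/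
theorem gen_pow_inj {ζ : Fˣ} (hgen : ∀ x : Fˣ, x ∈ Subgroup.zpowers ζ) {a b : ℕ} (ha : a < Fintype.card F - 1)
    (hb : b < Fintype.card F - 1) (e : (ζ : F) ^ a = (ζ : F) ^ b) : a = b := by
  have ho : orderOf ζ = Fintype.card F - 1 := by
    rw [orderOf_eq_card_of_forall_mem_zpowers hgen, Nat.card_units, Nat.card_eq_fintype_card]
  refine pow_injOn_Iio_orderOf (x := ζ) (ho ▸ ha) (ho ▸ hb) (Units.ext ?_)
  simpa using e

end Cfsg.Agent.H75.TwistGen
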