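import Cfsg.Agent.H75.TwistGen.Core

/-!
# Twisted groups with one root length: a fixed root group from a commutator of two classes
-/

set_option autoImplicit false

namespace Cfsg.Agent.H75.TwistGen

open Cfsg.Lie Cfsg.Agent.H46
open scoped Matrix MatrixGroups

variable {D : ChevalleyDatum} {F : Type*} [Field F]

/-- The coefficient of a pair in a single-target table. -/
def cf (F : Type*) [Field F] (D : ChevalleyDatum) (a b : ℕ) : F :=
  match D.commTerms a b with
  | [c] => (c.2.1 : F)
  | _ => 0

/-- Dropping vanishing terms from a sum. -/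
theorem sum_map_filter_of_zero {α A : Type*} [AddMonoid A] (l : List α) (g : α → A) (p : α → Bool)
    (h0 : ∀ a ∈ l, p a = false → g a = 0) : (l.map g).sum = ((l.filter p).map g).sum := by
  induction l with
  | nil => rfl
  | cons a l ih =>
    have ih' := ih fun x hx => h0 x (List.mem_cons_of_mem _ hx)
    rw [List.filter_cons]
    cases hp : p a with
    | true => simp [ih']
    | false => simp [ih', h0 a List.mem_cons_self hp]

/-- A sum over an initial segment as a sum over `Fin`. -/
theorem sum_range_eq_fin {A : Type*} [AddCommMonoid A] (n : ℕ) (g : ℕ → A) :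
    ((List.range n).map g).sum = ∑ i : Fin n, g i := by
  induction n with
  | zero => simp
  | succ n ih => simp [List.range_succ, List.sum_append, Fin.sum_univ_castSucc, ih]

section

variable (G : Good D) {as bs : List ℕ} {k₀ : ℕ}

theorem chkPairs_spec (hc : chkPairs D as bs k₀ = true) :
    k₀ < D.nroots ∧ (∀ a ∈ as ++ bs, ∀ t u : F, Commute (G.xg a t) (G.xg k₀ u)) ∧
    (∀ a ∈ as, ∀ b ∈ bs, ∀ t u : F,
      G.xg b u * G.xg a t = G.xg a t * G.xg b u * G.xg k₀ (cf F D a b * -t * u)) ∧
    (∀ b ∈ bs, (as.map fun a => cf F D a b).sum = 1 ∨ (as.map fun a => cf F D a b).sum = -1) := by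
  simp only [chkPairs, Bool.and_eq_true, Nat.blt_eq, List.all_eq_true, Bool.not_eq_true', List.isEmpty_iff] at hc
  obtain ⟨⟨⟨hk, hsing⟩, hpair⟩, hone⟩ := hc
  have hlt : ∀ a ∈ as ++ bs, a < D.nroots := fun a ha => (hsing a ha).1.1.1
  have hform : ∀ a ∈ as, ∀ b ∈ bs, D.commTerms a b = [] ∨
      ∃ M : ℤ, (M = 1 ∨ M = -1) ∧ D.commTerms a b = [(k₀, M, 1, 1)] := by
    intro a ha b hb
    obtain ⟨-, hm⟩ := hpair a ha b hb
    generalize hL : D.commTerms a b = L at hm
    match L, hm with
    | [], _ => exact Or.inl rfl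
    | [(c1, M, i, j)], hm =>
      simp only [Bool.and_eq_true, Bool.or_eq_true, decide_eq_true_eq] at hm
      obtain ⟨⟨⟨h1, h2⟩, h3⟩, h4⟩ := hm
      exact Or.inr ⟨M, h4, by rw [Nat.eq_of_beq_eq_true h1, Nat.eq_of_beq_eq_true h2, Nat.eq_of_beq_eq_true h3]⟩
  refine ⟨hk, fun a ha t u => ?_, fun a ha b hb t u => ?_, fun b hb => ?_⟩
  · obtain ⟨⟨⟨hal, -⟩, hne⟩, hnil⟩ := hsing a ha
    exact G.xg_commute hal hk (fun e => by subst e; simp at hne) hnil t u
  · obtain ⟨⟨hne, hneg⟩, -⟩ := hpair a ha b hb
    have e := ChevTwoGen.xg_comm (G := G) (hlt a (List.mem_append_left _ ha)) (hlt b (List.mem_append_right _ hb))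
      (fun e => by subst e; simp at hne) (fun e => by subst e; simp at hneg) t u
    rcases hform a ha b hb with h | ⟨M, -, h⟩ <;> simp [cf, h, ChevTwoGen.term, G.xg_zero] at e ⊢ <;> exact e
  · have hlen := Nat.eq_of_beq_eq_true (hone b hb)
    have hzero : ∀ a ∈ as, (D.commTerms a b).isEmpty = true → cf F D a b = 0 := fun a _ h => by
      simp [cf, List.isEmpty_iff.1 h]
    obtain ⟨a₀, ha₀⟩ := List.length_eq_one_iff.1 hlen
    have hsum := sum_map_filter_of_zero as (fun a => cf F D a b) (fun a => !(D.commTerms a b).isEmpty)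
      fun a ha h => hzero a ha (by simpa using h)
    rw [hsum, ha₀]
    obtain ⟨ha1, ha2⟩ := List.mem_filter.1 (ha₀ ▸ List.mem_singleton.2 rfl :
      a₀ ∈ as.filter fun a => !(D.commTerms a b).isEmpty)
    rcases hform a₀ ha1 b hb with h | ⟨M, hM, h⟩
    · simp [h] at ha2
    · rcases hM with rfl | rfl <;> simp [cf, h]

/-- Moving a product of root elements past another one, with a single central target. -/
theorem prod_swap (hc : chkPairs D as bs k₀ = true) (A B : List (ℕ × F)) (hA : ∀ p ∈ A, p.1 ∈ as)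
    (hB : ∀ p ∈ B, p.1 ∈ bs) :
    (B.map fun p => G.xg p.1 p.2).prod * (A.map fun p => G.xg p.1 p.2).prod =
      (A.map fun p => G.xg p.1 p.2).prod * (B.map fun p => G.xg p.1 p.2).prod *
        G.xg k₀ (A.map fun p => (B.map fun q => cf F D p.1 q.1 * -p.2 * q.2).sum).sum := by
  obtain ⟨-, hcen, hsw, -⟩ := chkPairs_spec (F := F) G hc
  have one : ∀ (a : ℕ) (t : F), a ∈ as → ∀ B : List (ℕ × F), (∀ p ∈ B, p.1 ∈ bs) →
      (B.map fun p => G.xg p.1 p.2).prod * G.xg a t = G.xg a t * (B.map fun p => G.xg p.1 p.2).prod *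
        G.xg k₀ (B.map fun q => cf F D a q.1 * -t * q.2).sum := by
    intro a t ha B
    induction B with
    | nil => intro _; simp [G.xg_zero]
    | cons q B ih =>
      intro hB
      rw [List.map_cons, List.prod_cons, List.map_cons, List.sum_cons, mul_assoc,
        ih fun p hp => hB p (List.mem_cons_of_mem _ hp), ← mul_assoc, ← mul_assoc,
        hsw a ha q.1 (hB q List.mem_cons_self), ← G.xg_add]
      have hcB : Commute (B.map fun p => G.xg p.1 p.2).prod (G.xg k₀ (cf F D a q.1 * -t * q.2)) :=
        Commute.list_prod_left _ _ fun x hx => by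
          obtain ⟨p, hp, rfl⟩ := List.mem_map.1 hx
          exact hcen p.1 (List.mem_append_right _ (hB p (List.mem_cons_of_mem _ hp))) _ _
      generalize G.xg k₀ (cf F D a q.1 * -t * q.2) = Z at hcB ⊢
      simp only [mul_assoc]
      rw [← mul_assoc Z, ← hcB.eq, mul_assoc]
  induction A with
  | nil => simp [G.xg_zero]
  | cons p A ih =>
    have ih' := ih fun x hx => hA x (List.mem_cons_of_mem _ hx)
    rw [List.map_cons, List.prod_cons, List.map_cons, List.sum_cons, ← mul_assoc,
      one p.1 p.2 (hA p List.mem_cons_self) B hB, ← G.xg_add]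
    have hcA : Commute (A.map fun p => G.xg p.1 p.2).prod
        (G.xg k₀ (B.map fun q => cf F D p.1 q.1 * -p.2 * q.2).sum) :=
      Commute.list_prod_left _ _ fun x hx => by
        obtain ⟨q, hq, rfl⟩ := List.mem_map.1 hx
        exact hcen q.1 (List.mem_append_left _ (hA q (List.mem_cons_of_mem _ hq))) _ _
    rw [mul_assoc (G.xg p.1 p.2 * _) _ _, ← hcA.eq, mul_assoc (G.xg p.1 p.2), ← mul_assoc _ _ (G.xg k₀ _), ih']
    have hadd : ∀ u v : F, G.xg k₀ u * G.xg k₀ v = G.xg k₀ v * G.xg k₀ u := fun u v => by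
      rw [G.xg_add, G.xg_add, add_comm]
    simp only [mul_assoc]
    rw [hadd]

end

variable {T : GraphData D} {G : Good D} (h : T.Ok G) (C : CoxData G) (f : F →+* F) {M : Subgroup (GL D.Idx F)}

include h C

/-- The fixed root group of a simple class of length one from a commutator. -/
theorem cov_of_commutator [Finite F] {i j : Fin T.m} (hj : Cov (G := G) f M j) (hMle : M ≤ (T.tdata h C f).G1)
    {L₂ L₃ : List (Fin T.m)} (hn₂ : nWord T G L₂ ∈ M) (hn₃ : nWord T G L₃ ∈ M) (k₀ : Fin D.nroots)
    (hc : chkPairs D ((T.orb j).map fun k : Fin D.rank => D.simple k)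
      ((T.orb j).map fun k => (twAct T G L₂ (G.simpleF k)).val) k₀ = true)
    (hi : T.orb i = [T.rep i]) (hto : twAct T G L₃ k₀ = G.simpleF (T.rep i))
    (hper : ∀ t : F, f^[T.len j] t = t) (ζ : F)
    (hdist : ∀ a < T.len j, ∀ b < T.len j, f^[a] ζ = f^[b] ζ → a = b) : Cov (G := G) f M i := by
  classical
  obtain ⟨hk, -, -, hone⟩ := chkPairs_spec (F := F) G hc
  choose e he hE using fun k : Fin D.rank => nWord_conj h (F := F) L₂ (G.simpleF k)
  set κ : Fin D.rank → F := fun k =>
    -(((T.orb j).map fun a : Fin D.rank => D.simple a).map fun a =>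
      cf F D a (twAct T G L₂ (G.simpleF k)).val).sum * e k with hκ
  have hκ0 : ∀ k ∈ T.orb j, κ k ≠ 0 := by
    intro k hk'
    refine mul_ne_zero (neg_ne_zero.2 ?_) (by rcases he k with e' | e' <;> simp [e'])
    rcases hone _ (List.mem_map_of_mem hk') with e' | e' <;> rw [e'] <;> simp
  have hsat1 : T.Sat f j fun _ => (1 : F) := fun _ _ => (map_one f).symm
  set v : F → F := fun t => ((T.orb j).map fun k => κ k * T.orbParam f j t k).sum with hv
  have hvM : ∀ t, G.xg k₀ (v t) ∈ M := by
    intro t
    set c := T.orbParam f j t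
    have hBM := mul_mem (mul_mem hn₂ (hj c (T.sat_orbParam h f (hper t)))) (inv_mem hn₂)
    have hAM := hj _ hsat1
    set Bl : List (ℕ × F) := (T.orb j).map fun k => ((twAct T G L₂ (G.simpleF k)).val, e k * c k) with hBl
    set Al : List (ℕ × F) := (T.orb j).map fun a : Fin D.rank => (D.simple a, (1 : F)) with hAl
    have eA : T.pX G j (fun _ => (1 : F)) = (Al.map fun p => G.xg p.1 p.2).prod := by
      simp only [GraphData.pX, GraphData.orbProd, hAl, List.map_map]; rfl
    have eB : nWord T G L₂ * T.pX G j c * (nWord T G L₂)⁻¹ = (Bl.map fun p => G.xg p.1 p.2).prod := by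
      rw [GraphData.pX, GraphData.orbProd, ← MulAut.conj_apply, map_list_prod, List.map_map, hBl, List.map_map]
      exact congrArg List.prod (List.map_congr_left fun k _ => hE k (c k))
    rw [eB] at hBM
    rw [eA] at hAM
    have hsw := prod_swap G hc Al Bl
      (fun p hp => by obtain ⟨a, ha, rfl⟩ := List.mem_map.1 hp; exact List.mem_map_of_mem ha)
      (fun p hp => by obtain ⟨k, hk', rfl⟩ := List.mem_map.1 hp; exact List.mem_map_of_mem hk')
    have h1 := mul_mem hBM hAM
    rw [hsw] at h1
    have h2 := (M.mul_mem_cancel_left (mul_mem hAM hBM)).1 h1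
    convert h2 using 2
    simp only [hv, hAl, hBl, hκ, List.map_map, Function.comp_def]
    generalize T.orb j = o₁
    suffices ∀ o₂ : List (Fin D.rank),
        (o₂.map fun k => (-(o₁.map fun a : Fin D.rank => cf F D (D.simple a) (twAct T G L₂ (G.simpleF k)).val).sum *
          e k) * c k).sum =
        (o₁.map fun a : Fin D.rank => (o₂.map fun k =>
          cf F D (D.simple a) (twAct T G L₂ (G.simpleF k)).val * -1 * (e k * c k)).sum).sum from this o₁
    intro o₂
    induction o₂ with
    | nil => induction o₁ with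
      | nil => simp
      | cons a l ih => simp
    | cons k o₂ ih =>
      simp only [List.map_cons, List.sum_cons]
      rw [ih, List.sum_map_add, List.sum_map_mul_right, List.sum_map_mul_right]
      ring
  obtain ⟨d, hd, hD⟩ := nWord_conj h (F := F) L₃ k₀
  have hd2 : d * d = 1 := by rcases hd with rfl | rfl <;> simp
  have hdf : ∀ x : F, f (d * x) = d * f x := fun x => by rcases hd with rfl | rfl <;> simp
  have hfixv : ∀ t, f (v t) = v t := by
    intro t
    have hG : nWord T G L₃ * G.xg k₀ (v t) * (nWord T G L₃)⁻¹ ∈ (T.tdata h C f).G1 :=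
      mul_mem (mul_mem (nWord_mem_G1 h C f L₃) (hMle (hvM t))) (inv_mem (nWord_mem_G1 h C f L₃))
    rw [hD, hto] at hG
    have ep : T.pX G i (fun _ => d * v t) = G.xg (D.simple (T.rep i)) (d * v t) := by
      simp [GraphData.pX, GraphData.orbProd, hi]
    change G.xg (D.simple (T.rep i)) (d * v t) ∈ _ at hG
    rw [← ep] at hG
    have hs := (T.twist_orbProd_iff h f fun _ : Fin D.rank => d * v t).1
      ((T.tdata h C f).G1_le_fixed hG) _ (T.rep_mem_orb h i)
    rw [hdf] at hs
    have hdne : d ≠ 0 := left_ne_zero_of_mul_eq_one hd2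
    exact (mul_left_cancel₀ hdne hs).symm
  -- some value is non-zero
  have hex : ∃ t, v t ≠ 0 := by
    by_contra hall
    push Not at hall
    let φ : Fin (T.len j) → (F →* F) := fun s => (f ^ (s : ℕ)).toMonoidHom
    have hφ : Function.Injective φ := by
      intro a b eab
      refine Fin.ext (hdist a a.2 b b.2 ?_)
      have := DFunLike.congr_fun eab ζ
      simpa [φ, RingHom.coe_pow] using this
    have hli := (linearIndependent_monoidHom F F).comp φ hφ
    have hsum : ∑ s : Fin (T.len j), κ (T.ρF^[(s : ℕ)] (T.rep j)) • (⇑(φ s) : F → F) = 0 := by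
      funext t
      have ht := hall t
      simp only [hv] at ht
      rw [Finset.sum_apply, Pi.zero_apply, ← ht, GraphData.orb, List.map_map, sum_range_eq_fin]
      refine Finset.sum_congr rfl fun s _ => ?_
      rw [Function.comp_apply, T.orbParam_apply h f (hper t) s.2.le]
      simp [φ, RingHom.coe_pow]
    have := Fintype.linearIndependent_iff.1 hli _ hsum ⟨0, (h.len_pos j).1⟩
    exact hκ0 _ (T.rep_mem_orb h j) (by simpa using this)
  obtain ⟨t₀, ht₀⟩ := hex
  have hlin : ∀ lam : F, f lam = lam → v (lam * t₀) = lam * v t₀ := by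
    intro lam hlam
    simp only [hv, ← List.sum_map_mul_left]
    refine congrArg List.sum (List.map_congr_left fun k _ => ?_)
    simp only [GraphData.orbParam]
    rw [← RingHom.coe_pow, map_mul, RingHom.coe_pow, Function.iterate_fixed hlam]
    ring
  intro c hc'
  have hfc : f (c (T.rep i)) = c (T.rep i) := by
    have h0 : T.ρF (T.rep i) = T.rep i := by
      have := T.ρF_mem h (T.rep_mem_orb h i)
      rw [hi] at this
      simpa using this
    have := hc' _ (T.rep_mem_orb h i)
    rw [h0] at this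
    exact this.symm
  have hw : f (d * c (T.rep i)) = d * c (T.rep i) := by rw [hdf, hfc]
  have hxM := hvM (d * c (T.rep i) / v t₀ * t₀)
  rw [hlin _ (by rw [map_div₀, hw, hfixv]), div_mul_cancel₀ _ ht₀] at hxM
  have h1 := mul_mem (mul_mem hn₃ hxM) (inv_mem hn₃)
  rw [hD, hto, ← mul_assoc, hd2, one_mul] at h1
  simpa [GraphData.pX, GraphData.orbProd, hi, Good.simpleF] using h1

end Cfsg.Agent.H75.TwistGen
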