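import Cfsg.Agent.H46.TwistGroup
import Cfsg.Agent.H75.ChevTwoGen.Core
import Mathlib.FieldTheory.Finite.Basic
import Mathlib.LinearAlgebra.LinearIndependent.Lemmas

/-!
# Twisted groups with one root length: subgroups containing root groups of simple classes

A subgroup containing a torus element `h` and `pX_j(1) n_w` contains `X¹_j` and `n_w`. Root groups of simple classes
spread along words in the twisted reflections it contains, and a commutator of two classes of length `> 1` with a single
target root gives the fixed root elements of that root.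
-/

set_option autoImplicit false

namespace Cfsg.Agent.H75.TwistGen

open Cfsg.Lie Cfsg.Agent.H46
open scoped Matrix MatrixGroups

/-- An additive subgroup of a finite field stable under the square of a generator is everything. -/
theorem eq_top_of_sq_stable {K : Type*} [Field K] [Fintype K] (ζ : Kˣ) (hgen : ∀ x : Kˣ, x ∈ Subgroup.zpowers ζ)
    (S : AddSubgroup K) {x₀ : K} (hx : x₀ ∈ S) (hx0 : x₀ ≠ 0) (hS : ∀ x ∈ S, (ζ : K) ^ 2 * x ∈ S) : S = ⊤ := by
  classical
  let R : Subring K :=
    { carrier := {r | ∀ x ∈ S, r * x ∈ S}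
      mul_mem' := fun {a b} ha hb x hx => by rw [mul_assoc]; exact ha _ (hb x hx)
      one_mem' := fun x hx => by rwa [one_mul]
      add_mem' := fun {a b} ha hb x hx => by rw [add_mul]; exact add_mem (ha x hx) (hb x hx)
      zero_mem' := fun x _ => by rw [zero_mul]; exact zero_mem _
      neg_mem' := fun {a} ha x hx => by rw [neg_mul]; exact neg_mem (ha x hx) }
  letI : Field R := Fintype.fieldOfDomain R
  by_cases hall : R = ⊤
  · rw [eq_top_iff]
    intro y _
    have : y / x₀ ∈ R := hall ▸ Subring.mem_top _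
    simpa [div_mul_cancel₀ y hx0] using this x₀ hx
  exfalso
  letI : Module R K := (R.subtype).toModule
  obtain ⟨k, hk⟩ : ∃ k : ℕ, Fintype.card K = Fintype.card R ^ k := ⟨_, Module.card_eq_pow_finrank⟩
  have hne : Fintype.card R < Fintype.card K :=
    Fintype.card_subtype_lt (x := (Classical.not_forall.1 fun h => hall (Subring.eq_top_iff' R |>.2 h)).choose)
      (Classical.not_forall.1 fun h => hall (Subring.eq_top_iff' R |>.2 h)).choose_spec
  have hR : 2 ≤ Fintype.card R := Fintype.one_lt_card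
  have h2 : 2 ≤ k := by
    rcases Nat.lt_or_ge k 2 with h | h
    · interval_cases k <;> simp at hk <;> omega
    · exact h
  have hsq : Fintype.card R * Fintype.card R ≤ Fintype.card K := by
    rw [hk, ← sq]; exact Nat.pow_le_pow_right (by omega) h2
  have hz : ζ ^ (2 * (Fintype.card R - 1)) = 1 := by
    have h := FiniteField.pow_card_sub_one_eq_one (⟨(ζ : K) ^ 2, hS⟩ : R)
      (fun e => pow_ne_zero 2 ζ.ne_zero (congrArg Subtype.val e))
    exact Units.ext (by rw [Units.val_pow_eq_pow_val, pow_mul, Units.val_one]; exact congrArg Subtype.val h)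
  have hord : orderOf ζ = Fintype.card K - 1 := by
    rw [orderOf_eq_card_of_forall_mem_zpowers hgen, Nat.card_units, Nat.card_eq_fintype_card]
  have hle := Nat.le_of_dvd (by omega) (orderOf_dvd_of_pow_eq_one hz)
  rw [hord] at hle
  have hle' : 2 * Fintype.card R ≤ Fintype.card R * Fintype.card R := Nat.mul_le_mul_right _ hR
  omega

variable {D : ChevalleyDatum} (T : GraphData D) (G : Good D) {F : Type*} [Field F]

/-- The root permutation of a word in twisted reflections. -/
def twAct (L : List (Fin T.m)) (r : Fin D.nroots) : Fin D.nroots := L.foldr (fun j r => T.wJ G j r) r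

/-- The product of the representatives of a word. -/
noncomputable def nWord (L : List (Fin T.m)) : GL D.Idx F :=
  (L.map fun j => T.nPar G j fun _ => (1 : F)).prod

theorem nWord_append (L L' : List (Fin T.m)) :
    nWord T G (F := F) (L ++ L') = nWord T G L * nWord T G L' := by
  simp [nWord]

/-- The factor of `h` on the root `r`. -/
def chi (f : F →+* F) (j : Fin T.m) (ζ : F) (r : ℕ) : F :=
  ((T.orb j).map fun k : Fin D.rank => T.orbParam f j ζ k ^ D.cartan k r).prod

/-- A table of pairs of roots with a single common target. -/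
def chkPairs (D : ChevalleyDatum) (as bs : List ℕ) (k₀ : ℕ) : Bool :=
  Nat.blt k₀ D.nroots &&
  (as ++ bs).all (fun a => Nat.blt a D.nroots && !Nat.beq k₀ a && !Nat.beq k₀ (D.neg a) &&
    (D.commTerms a k₀).isEmpty) &&
  as.all (fun a => bs.all fun b => !Nat.beq b a && !Nat.beq b (D.neg a) &&
    match D.commTerms a b with
    | [] => true
    | [c] => Nat.beq c.1 k₀ && Nat.beq c.2.2.1 1 && Nat.beq c.2.2.2 1 &&
        (decide (c.2.1 = 1) || decide (c.2.1 = -1))
    | _ => false) &&
  bs.all (fun b => Nat.beq (as.filter fun a => !(D.commTerms a b).isEmpty).length 1)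

variable {T G} (h : T.Ok G) (C : CoxData G) (f : F →+* F) {M : Subgroup (GL D.Idx F)}

/-- `X¹_j` lies in `M`. -/
def Cov (f : F →+* F) (M : Subgroup (GL D.Idx F)) (j : Fin T.m) : Prop := ∀ c, T.Sat f j c → T.pX G j c ∈ M

include h C

theorem nWord_mem_N0 (L : List (Fin T.m)) : nWord T G L ∈ (T.tdata h C f).N0 :=
  Subgroup.list_prod_mem _ fun g hg => by
    obtain ⟨j, -, rfl⟩ := List.mem_map.1 hg
    rw [← T.tdata_nS h C f]
    exact (T.tdata h C f).nS_mem_N0 j

theorem nWord_mem_G1 (L : List (Fin T.m)) : nWord T G L ∈ (T.tdata h C f).G1 :=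
  (T.tdata h C f).N0_le_G1 (nWord_mem_N0 h C f L)

theorem mem_G1_of_gen {g : GL D.Idx F} (hg : g ∈ T.genSet G f) : g ∈ (T.tdata h C f).G1 := by
  rw [T.G1_eq_closure h C f]; exact Subgroup.subset_closure hg

omit C in
theorem nWord_conj (L : List (Fin T.m)) (r : Fin D.nroots) :
    ∃ e : F, (e = 1 ∨ e = -1) ∧ ∀ t : F,
      nWord T G L * G.xg r t * (nWord T G L)⁻¹ = G.xg (twAct T G L r) (e * t) := by
  induction L with
  | nil => exact ⟨1, Or.inl rfl, fun t => by simp [nWord, twAct]⟩
  | cons j L ih =>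
    obtain ⟨e, he, hE⟩ := ih
    set r' := twAct T G L r
    have step : ∃ d : F, (d = 1 ∨ d = -1) ∧ ∀ t : F, T.nPar G j (fun _ => (1 : F)) * G.xg r' t *
        (T.nPar G j (fun _ => (1 : F)))⁻¹ = G.xg (T.wJ G j r') (d * t) := by
      have key : ∀ o : List (Fin D.rank), ∃ d : F, (d = 1 ∨ d = -1) ∧ ∀ t : F,
          (o.map fun k : Fin D.rank => G.ng (D.simple k) (1 : F)).prod * G.xg r' t *
            (o.map fun k : Fin D.rank => G.ng (D.simple k) (1 : F)).prod⁻¹ =
          G.xg (o.foldr (fun i r => G.sPerm i r) r' : Fin D.nroots) (d * t) := by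
        intro o
        induction o with
        | nil => exact ⟨1, Or.inl rfl, fun t => by simp⟩
        | cons a o iho =>
          set r'' : Fin D.nroots := o.foldr (fun i r => G.sPerm i r) r'
          obtain ⟨d, hd, hD⟩ := iho
          refine ⟨(G.tab.eta a r'' : F) * d, ?_, fun t => ?_⟩
          · rcases hd with rfl | rfl <;> rcases G.eta_sign (F := F) a r'' with h' | h' <;> simp [h']
          · rw [List.map_cons, List.prod_cons, mul_inv_rev, List.foldr_cons, mul_assoc (G.ng _ _),
              ← mul_assoc _ _ (G.ng _ _)⁻¹, mul_assoc (G.ng _ _), hD, G.ng_simple_mul_xg a.2 r''.2,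
              mul_inv_cancel_right, G.sPerm_apply, mul_assoc]
      exact key _
    obtain ⟨d, hd, hD⟩ := step
    refine ⟨d * e, by rcases hd with rfl | rfl <;> rcases he with rfl | rfl <;> simp, fun t => ?_⟩
    have e1 : nWord T G (F := F) (j :: L) = T.nPar G j (fun _ => (1 : F)) * nWord T G L := by simp [nWord]
    rw [e1, mul_inv_rev, show twAct T G (j :: L) r = T.wJ G j r' from rfl,
      show ∀ a b x : GL D.Idx F, a * b * x * (b⁻¹ * a⁻¹) = a * (b * x * b⁻¹) * a⁻¹ from fun a b x => by group,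
      hE, hD, mul_assoc]

/-- A fixed element mapped into a covered simple class by a word in `M` lies in `M`. -/
theorem transport_mem {j : Fin T.m} (hj : Cov (G := G) f M j) {L : List (Fin T.m)} (hn : nWord T G L ∈ M)
    {y : GL D.Idx F} (hy : y ∈ (T.tdata h C f).G1) (l : List (Fin D.nroots × F))
    (hl : y = (l.map fun p => G.xg p.1 p.2).prod) (hact : ∀ p ∈ l, twAct T G L p.1 ∈ (T.orb j).map G.simpleF) :
    y ∈ M := by
  set n := nWord T G (F := F) L with hndef
  have hG : n * y * n⁻¹ ∈ (T.tdata h C f).G1 :=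
    mul_mem (mul_mem (nWord_mem_G1 h C f L) hy) (inv_mem (nWord_mem_G1 h C f L))
  have hX : n * y * n⁻¹ ∈ (T.tdata h C f).X1 j := by
    refine ⟨?_, (T.tdata h C f).G1_le_fixed hG⟩
    rw [hl, ← MulAut.conj_apply, map_list_prod, List.map_map]
    refine Subgroup.list_prod_mem _ fun x hx => ?_
    obtain ⟨p, hp, rfl⟩ := List.mem_map.1 hx
    obtain ⟨e, -, hE⟩ := nWord_conj h (F := F) L p.1
    rw [Function.comp_apply, MulAut.conj_apply, hndef, hE]
    exact le_iSup₂ (f := fun r (_ : r ∈ (T.orb j).map G.simpleF) => D.rootSubgroup F (r : Fin D.nroots))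
      (twAct T G L p.1) (hact p hp) (G.rootSubgroup_mem_iff.2 ⟨_, rfl⟩)
  obtain ⟨c, hc, e⟩ := (T.mem_X1_iff h C f).1 hX
  have := mul_mem (mul_mem (inv_mem hn) (hj c hc)) hn
  rw [← e] at this
  simpa [mul_assoc] using this

/-- Spreading to another simple class. -/
theorem cov_of_act {i j : Fin T.m} (hj : Cov (G := G) f M j) {L : List (Fin T.m)} (hn : nWord T G L ∈ M)
    (hact : ∀ k ∈ T.orb i, twAct T G L (G.simpleF k) ∈ (T.orb j).map G.simpleF) : Cov (G := G) f M i := by
  intro c hc
  refine transport_mem h C f hj hn (mem_G1_of_gen h C f ⟨i, c, hc, Or.inl rfl⟩)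
    ((T.orb i).map fun k => (G.simpleF k, c k)) (by simp [GraphData.pX, GraphData.orbProd, List.map_map]; rfl) ?_
  intro p hp
  obtain ⟨k, hk, rfl⟩ := List.mem_map.1 hp
  exact hact k hk

/-- The negative class and the reflection. -/
theorem neg_of_act {i j : Fin T.m} (hi : Cov (G := G) f M i) (hj : Cov (G := G) f M j) {L : List (Fin T.m)}
    (hn : nWord T G L ∈ M) (hact : ∀ k ∈ T.orb i, twAct T G L (G.negF (G.simpleF k)) ∈ (T.orb j).map G.simpleF) :
    (∀ c, T.Sat f i c → T.nX G i c ∈ M) ∧ nWord T G [i] ∈ M := by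
  have h1 : ∀ c, T.Sat f i c → T.nX G i c ∈ M := by
    intro c hc
    refine transport_mem h C f hj hn (mem_G1_of_gen h C f ⟨i, c, hc, Or.inr rfl⟩)
      ((T.orb i).map fun k => (G.negF (G.simpleF k), c k))
      (by simp [GraphData.nX, GraphData.orbProd, List.map_map]; rfl) ?_
    intro p hp
    obtain ⟨k, hk, rfl⟩ := List.mem_map.1 hp
    exact hact k hk
  refine ⟨h1, ?_⟩
  have hs : T.Sat f i fun _ => (1 : F) := fun _ _ => (map_one f).symm
  have e : nWord T G [i] = T.nPar G i fun _ => (1 : F) := by simp [nWord]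
  rw [e, T.nPar_eq_gen h i]
  exact mul_mem (mul_mem (hi _ hs) (h1 _ fun k _ => by simp)) (hi _ hs)

omit C in
theorem pX_mul (j : Fin T.m) (c c' : Fin D.rank → F) :
    T.pX G j c * T.pX G j c' = T.pX G j fun k => c k + c' k := by
  simp only [GraphData.pX, GraphData.orbProd]
  rw [← prod_map_mul_of_commute _ _ _ (h.nodup j) fun a ha b hb hab => (T.orbProd_commute h ha hb hab _ _).1]
  exact congrArg List.prod (List.map_congr_left fun k _ => G.xg_add _ _ _)

omit C in
theorem pX_congr (j : Fin T.m) {c c' : Fin D.rank → F} (e : ∀ k ∈ T.orb j, c k = c' k) :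
    T.pX G j c = T.pX G j c' :=
  congrArg List.prod (List.map_congr_left fun k hk => by rw [e k hk])

omit C in
theorem pX_inv (j : Fin T.m) (c : Fin D.rank → F) : (T.pX G j c)⁻¹ = T.pX G j fun k => -c k := by
  refine inv_eq_of_mul_eq_one_right ?_
  rw [pX_mul h]
  exact List.prod_eq_one fun x hx => by
    obtain ⟨k, -, rfl⟩ := List.mem_map.1 hx
    simp [G.xg_zero]

omit C in
theorem sat_determined {j : Fin T.m} {c c' : Fin D.rank → F} (hc : T.Sat f j c) (hc' : T.Sat f j c')
    (e : c (T.rep j) = c' (T.rep j)) : ∀ k ∈ T.orb j, c k = c' k := by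
  intro k hk
  obtain ⟨s, -, rfl⟩ := List.mem_map.1 hk
  rw [(T.sat_iterate h f hc s).2, (T.sat_iterate h f hc' s).2, e]

omit h C in
theorem hg_prod_mul_xg {r : ℕ} (hr : r < D.nroots) (p : Fin D.rank → F) :
    ∀ o : List (Fin D.rank), (∀ k ∈ o, p k ≠ 0) → ∀ t : F,
      (o.map fun k : Fin D.rank => G.hg (D.simple k) (p k)).prod * G.xg r t =
        G.xg r ((o.map fun k : Fin D.rank => p k ^ D.cartan k r).prod * t) *
          (o.map fun k : Fin D.rank => G.hg (D.simple k) (p k)).prod := by
  intro o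
  induction o with
  | nil => intro _ t; simp
  | cons a o ih =>
    intro hp t
    rw [List.map_cons, List.map_cons, List.prod_cons, List.prod_cons, mul_assoc,
      ih (fun k hk => hp k (List.mem_cons_of_mem _ hk)), ← mul_assoc,
      G.hg_mul_xg (G.simple_lt a.2) hr (hp a List.mem_cons_self), G.pairing_simple a.2 hr, mul_assoc (G.xg r _),
      mul_assoc (p a ^ _)]

/-- The first step: `X¹_j` and `n_w` from the two generators. -/
theorem seed [Fintype F] {j : Fin T.m} {L : List (Fin T.m)} (r' : Fin D.nroots)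
    (hr' : twAct T G L r' = G.simpleF (T.rep j)) (hper : ∀ t : F, f^[T.len j] t = t)
    (hpre : ∀ k ∈ T.orb j, ∃ r : Fin D.nroots, twAct T G L r = G.simpleF k)
    (ζ : Fˣ) (hgen : ∀ x : Fˣ, x ∈ Subgroup.zpowers ζ) (hsq : (ζ : F) ^ 2 ≠ 1) (hβ : chi T f j (ζ : F) r' ≠ 1)
    (hA : (T.orbProd j fun k : Fin D.rank => G.hg (D.simple k) (T.orbParam f j (ζ : F) k)) ∈ M)
    (hB : T.pX G j (fun _ => (1 : F)) * nWord T G L ∈ M) :
    Cov (G := G) f M j ∧ nWord T G L ∈ M := by
  classical
  set p := T.orbParam f j (ζ : F) with hp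
  have hsatp : T.Sat f j p := T.sat_orbParam h f (hper _)
  have hp0 : ∀ k ∈ T.orb j, p k ≠ 0 := by
    intro k hk e0
    obtain ⟨s, hs, rfl⟩ := List.mem_map.1 hk
    rw [hp, T.orbParam_apply h f (hper _) (List.mem_range.1 hs).le] at e0
    exact ζ.ne_zero (Function.Injective.iterate f.injective s
      (e0.trans (Function.iterate_fixed (map_zero f) s).symm))
  have hprep : p (T.rep j) = (ζ : F) := by
    have := T.orbParam_apply h f (hper (ζ : F)) (Nat.zero_le _) (j := j)
    simpa using this
  set hh := T.orbProd j fun k : Fin D.rank => G.hg (D.simple k) (p k) with hhdef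
  have hact : ∀ r : ℕ, r < D.nroots → ∀ t : F, hh * G.xg r t = G.xg r (chi T f j (ζ : F) r * t) * hh :=
    fun r hr t => hg_prod_mul_xg hr p (T.orb j) hp0 t
  have hchi : ∀ k ∈ T.orb j, chi T f j (ζ : F) (D.simple k) = p k ^ 2 := by
    intro k hk
    rw [chi, ((List.perm_cons_erase hk).map _).prod_eq, List.map_cons, List.prod_cons]
    rw [G.cartan_eq_cart (G.simple_lt k.2) k.2, G.cart_eq_cartForm, G.rc_simple k.2, G.cartForm_single, one_mul,
      G.cm_self k.2, List.prod_eq_one, mul_one]
    · exact zpow_natCast (p k) 2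
    · intro x hx
      obtain ⟨a, ha, rfl⟩ := List.mem_map.1 hx
      have hak : a ≠ k := fun e => (h.nodup j).not_mem_erase (e ▸ ha)
      rw [G.cartan_eq_cart (G.simple_lt k.2) a.2, G.cart_eq_cartForm, G.rc_simple k.2, G.cartForm_single, one_mul,
        (h.orth j a (List.mem_of_mem_erase ha) k hk hak).1, zpow_zero]
  have hconjP : ∀ (g : GL D.Idx F) (χ : Fin D.rank → F) (c : Fin D.rank → F),
      (∀ k ∈ T.orb j, ∀ t, g * G.xg (D.simple k) t * g⁻¹ = G.xg (D.simple k) (χ k * t)) →
      g * T.pX G j c * g⁻¹ = T.pX G j fun k => χ k * c k := by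
    intro g χ c hg
    rw [GraphData.pX, GraphData.orbProd, ← MulAut.conj_apply, map_list_prod, List.map_map]
    exact congrArg List.prod (List.map_congr_left fun k hk => hg k hk _)
  set n := nWord T G (F := F) L with hndef
  set h' := n * hh * n⁻¹ with h'def
  have hh0 : hh ∈ T.fixTorus G f := T.orb_hg_mem_fixTorus h f j hsatp hp0
  have hh'0 : h' ∈ T.fixTorus G f := by
    rw [← T.tdata_H0 h C f] at hh0 ⊢
    exact (T.tdata h C f).H0_normal (nWord_mem_N0 h C f L) hh0
  have hcomm : hh * h' = h' * hh :=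
    G.diagonal_comm (T.fixTorus_le_diagonal h f hh0) (T.fixTorus_le_diagonal h f hh'0)
  have hh'act : ∀ (r : Fin D.nroots) (t : F),
      h' * G.xg (twAct T G L r) t * h'⁻¹ = G.xg (twAct T G L r) (chi T f j (ζ : F) r * t) := by
    intro r t
    obtain ⟨e, he, hE⟩ := nWord_conj h (F := F) L r
    have hee : e * e = 1 := by rcases he with rfl | rfl <;> simp
    have e1 : G.xg (twAct T G L r) t = n * G.xg r (e * t) * n⁻¹ := by
      rw [hndef, hE, ← mul_assoc, hee, one_mul]
    calc h' * G.xg (twAct T G L r) t * h'⁻¹ = n * (hh * G.xg r (e * t) * hh⁻¹) * n⁻¹ := by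
          rw [e1, h'def]; group
      _ = n * G.xg r (chi T f j (ζ : F) r * (e * t)) * n⁻¹ := by rw [hact r r.2, mul_inv_cancel_right]
      _ = _ := by rw [hndef, hE, mul_left_comm e (chi T f j (ζ : F) r), ← mul_assoc e e, hee, one_mul]
  haveI : Nonempty (Fin D.nroots) := ⟨r'⟩
  choose! pre hpre using hpre
  set χ' : Fin D.rank → F := fun k => if k = T.rep j then chi T f j (ζ : F) r' else chi T f j (ζ : F) (pre k)
    with hχ'
  have hh'P : ∀ k ∈ T.orb j, ∀ t, h' * G.xg (D.simple k) t * h'⁻¹ = G.xg (D.simple k) (χ' k * t) := by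
    intro k hk t
    by_cases e : k = T.rep j
    · subst e
      have := hh'act r' t
      rw [hr'] at this
      simpa [hχ', Good.simpleF] using this
    · have := hh'act (pre k) t
      rw [hpre k hk] at this
      simpa [hχ', e, Good.simpleF] using this
  set u := T.pX G j fun _ => (1 : F) with hu
  -- the element `v = u (h' u⁻¹ h'⁻¹)`
  have hv : h' * u⁻¹ * h'⁻¹ = T.pX G j fun k => χ' k * -1 := by
    rw [hu, pX_inv h]; exact hconjP h' χ' _ hh'P
  have hsat1 : T.Sat f j fun _ => (1 : F) := fun _ _ => (map_one f).symm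
  obtain ⟨c, hc, hce⟩ : ∃ c, T.Sat f j c ∧ u * (h' * u⁻¹ * h'⁻¹) = T.pX G j c := by
    refine (T.mem_X1_iff h C f).1 (mul_mem ((T.mem_X1_iff h C f).2 ⟨_, hsat1, rfl⟩) ⟨?_, ?_⟩)
    · rw [hv]; exact T.orbProd_mem h _
    · have hfu := ((T.mem_X1_iff h C f (g := u)).2 ⟨_, hsat1, rfl⟩).2
      rw [← T.tdata_H0 h C f] at hh'0
      have hf' : h' ∈ (T.tdata h C f).fixed := (T.tdata h C f).σ_H0 _ hh'0
      refine (T.tdata h C f).mem_fixed.2 ?_
      rw [map_mul, map_mul, map_inv, map_inv, (T.tdata h C f).mem_fixed.1 hf', (T.tdata h C f).mem_fixed.1 hfu]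
  have hcr : c (T.rep j) = 1 - chi T f j (ζ : F) r' := by
    have e := hce
    rw [hv, hu, pX_mul h] at e
    rw [← T.orbProd_inj h e _ (T.rep_mem_orb h j)]
    simp [hχ', sub_eq_add_neg]
  have hcM : T.pX G j c * h' ∈ M := by
    have h1 := mul_mem (mul_mem hB hA) (inv_mem hB)
    have e : u * n * hh * (u * n)⁻¹ = T.pX G j c * h' := by rw [← hce, h'def]; group
    rwa [e] at h1
  have hscale : ∀ c : Fin D.rank → F, hh * T.pX G j c * hh⁻¹ = T.pX G j fun k => p k ^ 2 * c k := by
    intro c
    refine hconjP hh (fun k => p k ^ 2) c fun k hk t => ?_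
    rw [hact _ (G.simple_lt k.2), mul_inv_cancel_right, hchi k hk]
  have hdM : T.pX G j (fun k => p k ^ 2 * c k + -c k) ∈ M := by
    have h1 := mul_mem (mul_mem (mul_mem hA hcM) (inv_mem hA)) (inv_mem hcM)
    have e : hh * (T.pX G j c * h') * hh⁻¹ * (T.pX G j c * h')⁻¹ =
        (hh * T.pX G j c * hh⁻¹) * (T.pX G j c)⁻¹ := by
      calc hh * (T.pX G j c * h') * hh⁻¹ * (T.pX G j c * h')⁻¹
          = hh * T.pX G j c * (h' * hh⁻¹ * h'⁻¹) * (T.pX G j c)⁻¹ := by group
        _ = _ := by rw [show h' * hh⁻¹ * h'⁻¹ = hh⁻¹ from by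
              have := hcomm
              calc h' * hh⁻¹ * h'⁻¹ = (h' * hh * h'⁻¹)⁻¹ := by group
                _ = _ := by rw [← hcomm, mul_inv_cancel_right]]
    rw [e, hscale, pX_inv h, pX_mul h] at h1
    exact h1
  let S : AddSubgroup F :=
    { carrier := {t | T.pX G j (T.orbParam f j t) ∈ M}
      add_mem' := fun {a b} ha hb => by
        show T.pX G j (T.orbParam f j (a + b)) ∈ M
        have := mul_mem (show T.pX G j (T.orbParam f j a) ∈ M from ha) (show T.pX G j (T.orbParam f j b) ∈ M from hb)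
        rw [pX_mul h] at this
        rwa [pX_congr h j (c' := T.orbParam f j (a + b)) fun k _ => by simp [GraphData.orbParam]] at this
      zero_mem' := by
        show T.pX G j (T.orbParam f j 0) ∈ M
        rw [pX_congr h j (c' := fun _ => (0 : F)) fun k _ => by simp [GraphData.orbParam]]
        rw [show T.pX G j (fun _ => (0 : F)) = 1 from List.prod_eq_one fun x hx => by
          obtain ⟨k, -, rfl⟩ := List.mem_map.1 hx
          exact G.xg_zero _]
        exact one_mem _
      neg_mem' := fun {a} ha => by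
        show T.pX G j (T.orbParam f j (-a)) ∈ M
        have := inv_mem (show T.pX G j (T.orbParam f j a) ∈ M from ha)
        rw [pX_inv h] at this
        rwa [pX_congr h j (c' := T.orbParam f j (-a)) fun k _ => by simp [GraphData.orbParam]] at this }
  have hrep : ∀ t, T.orbParam f j t (T.rep j) = t := fun t => by
    simpa using T.orbParam_apply h f (hper t) (Nat.zero_le _) (j := j)
  have hsatD : T.Sat f j fun k => p k ^ 2 * c k + -c k := fun k hk => by
    simp only [hsatp k hk, hc k hk, map_add, map_mul, map_pow, map_neg]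
  have hx₀ : ((ζ : F) ^ 2 - 1) * (1 - chi T f j (ζ : F) r') ∈ S := by
    show T.pX G j (T.orbParam f j _) ∈ M
    rw [pX_congr h j (sat_determined h f (T.sat_orbParam h f (hper _)) hsatD ?_)]
    · exact hdM
    · rw [hrep, hprep, hcr]; ring
  have hStop : S = ⊤ := by
    refine eq_top_of_sq_stable ζ hgen S hx₀
      (mul_ne_zero (sub_ne_zero.2 hsq) (sub_ne_zero.2 fun e => hβ e.symm)) fun x hx => ?_
    show T.pX G j (T.orbParam f j _) ∈ M
    have h1 := mul_mem (mul_mem hA (show T.pX G j (T.orbParam f j x) ∈ M from hx)) (inv_mem hA)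
    rw [hscale] at h1
    have hs : T.Sat f j fun k => p k ^ 2 * T.orbParam f j x k := fun k hk => by
      simp only [hsatp k hk, T.sat_orbParam h f (hper x) k hk, map_mul, map_pow]
    rwa [pX_congr h j (sat_determined h f (T.sat_orbParam h f (hper _)) hs
      (by rw [hrep, hprep, hrep]))]
  have hcov : Cov (G := G) f M j := by
    intro c hc
    have : c (T.rep j) ∈ S := hStop ▸ AddSubgroup.mem_top _
    rwa [pX_congr h j (sat_determined h f hc (T.sat_orbParam h f (hper _)) (hrep _).symm)]
  refine ⟨hcov, ?_⟩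
  have := mul_mem (inv_mem (hcov _ hsat1)) hB
  rwa [inv_mul_cancel_left] at this

end Cfsg.Agent.H75.TwistGen
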